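import Mathlib
import Cfsg.Agent.Lib.Helper58.SuzA.Defs

/-!
# SuzA (S3162): basic facts on the coordinates `Coords F q T` in characteristic 2
-/

set_option autoImplicit false

namespace Cfsg.Agent.Lib.Helper66.SuzA

open Cfsg.Agent.Lib.Helper58.SuzA

universe u v

/-- A field with `(2 ^ n) ^ 2` elements, `1 ≤ n`, has characteristic 2. -/
theorem charP_two (F : Type u) [Field F] [Fintype F] (n : ℕ) (_hn : 1 ≤ n)
    (hF : Fintype.card F = (2 ^ n) ^ 2) : CharP F 2 := by
  obtain ⟨p, hp⟩ := CharP.exists F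
  have hprime : p.Prime := by
    have := hp
    exact CharP.char_is_prime F p
  have hdvd : p ∣ Fintype.card F := by
    have := hp
    exact (CharP.cast_eq_zero_iff F p _).1 (Nat.cast_card_eq_zero F)
  rw [hF, ← pow_mul] at hdvd
  have h2 : p ∣ 2 := hprime.dvd_of_dvd_pow hdvd
  have h3 : p = 2 := (Nat.prime_dvd_prime_iff_eq hprime Nat.prime_two).1 h2
  subst h3
  exact hp

section

variable {F : Type u} [Field F] {q : ℕ} {T : Type v} [Group T] (C : Coords F q T)

theorem c_one : C.c 1 = (0, 0) := by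
  have h := C.mul 1 1
  rw [mul_one] at h
  have h1 : (C.c 1).1 = 0 := by
    have h' := congrArg Prod.fst h
    simpa using h'
  have h2 : (C.c 1).2 = 0 := by
    have h' := congrArg Prod.snd h
    simp only [h1, mul_zero, add_zero] at h'
    simpa using h'
  exact Prod.ext h1 h2

theorem fst_mul (x y : T) : (C.c (x * y)).1 = (C.c x).1 + (C.c y).1 := by
  rw [C.mul]

theorem fst_inv (x : T) : (C.c x⁻¹).1 = -(C.c x).1 := by
  have h := fst_mul C x⁻¹ x
  rw [inv_mul_cancel, c_one] at h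
  exact eq_neg_of_add_eq_zero_left h.symm

theorem sq_coord [CharP F 2] (x : T) : C.c (x * x) = (0, (C.c x).1 ^ (q + 1)) := by
  rw [C.mul, CharTwo.add_self_eq_zero, CharTwo.add_self_eq_zero, zero_add, pow_succ]

theorem fst_eq_zero_iff [CharP F 2] (x : T) : (C.c x).1 = 0 ↔ x * x = 1 := by
  constructor
  · intro h
    apply C.inj
    rw [sq_coord, h, c_one, zero_pow (Nat.succ_ne_zero q)]
  · intro h
    have h1 := sq_coord C x
    rw [h, c_one] at h1
    have h2 := congrArg Prod.snd h1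
    exact pow_eq_zero_iff (Nat.succ_ne_zero q) |>.1 h2.symm

theorem aut_fst_zero [CharP F 2] (φ : MulAut T) (x : T) :
    (C.c (φ x)).1 = 0 ↔ (C.c x).1 = 0 := by
  rw [fst_eq_zero_iff, fst_eq_zero_iff, ← map_mul]
  exact EmbeddingLike.map_eq_one_iff

theorem aut_fst_congr [CharP F 2] (φ : MulAut T) {x y : T} (h : (C.c x).1 = (C.c y).1) :
    (C.c (φ x)).1 = (C.c (φ y)).1 := by
  have h1 : (C.c (x⁻¹ * y)).1 = 0 := by
    rw [fst_mul, fst_inv, h, neg_add_cancel]
  have h2 := (aut_fst_zero C φ (x⁻¹ * y)).2 h1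
  rw [map_mul, map_inv, fst_mul, fst_inv] at h2
  exact (neg_add_eq_zero.1 h2)

theorem aut_fst_inj [CharP F 2] (φ : MulAut T) {x y : T}
    (h : (C.c (φ x)).1 = (C.c (φ y)).1) : (C.c x).1 = (C.c y).1 := by
  have h1 : (C.c (φ (x⁻¹ * y))).1 = 0 := by
    rw [map_mul, map_inv, fst_mul, fst_inv, h, neg_add_cancel]
  have h2 := (aut_fst_zero C φ (x⁻¹ * y)).1 h1
  rw [fst_mul, fst_inv] at h2
  exact (neg_add_eq_zero.1 h2)

/-- Elements with first coordinate `0` commute. -/
theorem comm_of_fst_zero {z z' : T} (hz : (C.c z).1 = 0) (hz' : (C.c z').1 = 0) :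
    z * z' = z' * z := by
  apply C.inj
  rw [C.mul, C.mul, hz, hz', add_comm (C.c z).2 (C.c z').2]

end

end Cfsg.Agent.Lib.Helper66.SuzA
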