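import Mathlib
import Cfsg.Agent.Lib.Helper58.SuzA.Defs
import Cfsg.Agent.Lib.Helper66.SuzA.Basic

/-!
# SuzA (S3162): package (4) `PkgA`, from the trace package `PkgTr`
-/

set_option autoImplicit false

namespace Cfsg.Agent.Lib.Helper66.SuzA

open Cfsg.Agent.Lib.Helper58.SuzA

universe u v

theorem pkgA (hTr : PkgTr.{u}) : PkgA.{u, v} := by
  intro F _ _ n hn hF T _ C φ
  have hn1 : 1 ≤ n := by omega
  have hchar : CharP F 2 := charP_two F n hn1 hF
  have hsurj : ∀ a : F, ∃ x : T, (C.c x).1 = a := by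
    intro a
    obtain ⟨b, hb⟩ := hTr F n hn1 hF a
    obtain ⟨x, hx⟩ := (C.range a b).2 hb
    exact ⟨x, by rw [hx]⟩
  classical
  choose X hX using hsurj
  have hq0 : (2 : ℕ) ^ n ≠ 0 := pow_ne_zero _ (by norm_num)
  have hZ : ∀ b : F, b ^ (2 ^ n) = b → ∃ z : T, C.c z = (0, b) := by
    intro b hb
    apply (C.range 0 b).2
    rw [hb, CharTwo.add_self_eq_zero, zero_pow (Nat.succ_ne_zero _)]
  let A : F → F := fun a => (C.c (φ (X a))).1
  let B : F → F := fun b => if h : ∃ z : T, C.c z = (0, b) then (C.c (φ h.choose)).2 else 0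
  have hA : ∀ x, (C.c (φ x)).1 = A (C.c x).1 := fun x => aut_fst_congr C φ (hX _).symm
  have hB : ∀ z b, C.c z = (0, b) → C.c (φ z) = (0, B b) := by
    intro z b hz
    have h : ∃ z : T, C.c z = (0, b) := ⟨z, hz⟩
    have hz' : h.choose = z := C.inj (h.choose_spec.trans hz.symm)
    have hB' : B b = (C.c (φ z)).2 := by
      simp only [B]
      rw [dif_pos h, hz']
    have h1 : (C.c (φ z)).1 = 0 := (aut_fst_zero C φ z).2 (by rw [hz])
    exact Prod.ext h1 hB'.symm
  refine ⟨A, B, hA, ?_, ?_, ?_, ?_⟩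
  · intro a a'
    have h1 := hA (X a * X a')
    rw [map_mul, fst_mul, fst_mul, hX, hX] at h1
    exact h1.symm
  · intro a a' h
    have h1 := aut_fst_inj C φ (x := X a) (y := X a') h
    rwa [hX, hX] at h1
  · intro b b' hb hb'
    obtain ⟨z, hz⟩ := hZ b hb
    obtain ⟨z', hz'⟩ := hZ b' hb'
    have h1 : C.c (z * z') = (0, b + b') := by
      rw [C.mul, hz, hz']
      simp
    have h2 := hB _ _ h1
    rw [map_mul, C.mul, hB _ _ hz, hB _ _ hz'] at h2
    have h3 := congrArg Prod.snd h2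
    simp only [mul_zero, add_zero] at h3
    exact h3.symm
  · intro a
    have h1 : C.c (X a * X a) = (0, a ^ (2 ^ n + 1)) := by rw [sq_coord, hX]
    have h2 := hB _ _ h1
    rw [map_mul, sq_coord] at h2
    exact congrArg Prod.snd h2

end Cfsg.Agent.Lib.Helper66.SuzA
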