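import Mathlib
import Cfsg.Agent.Lib.Helper58.SuzA.Defs
import Cfsg.Agent.Lib.Helper66.SuzA.Basic

/-!
# SuzA (S3162): package (6) `PkgKerComm`, from the trace package `PkgTr`
-/

set_option autoImplicit false

namespace Cfsg.Agent.Lib.Helper66.SuzA

open Cfsg.Agent.Lib.Helper58.SuzA

universe u v

/-- An automorphism fixing the first coordinate fixes every element with first coordinate `0`. -/
theorem ker_fix (hTr : PkgTr.{u}) (F : Type u) [Field F] [Fintype F] (n : ℕ) (hn1 : 1 ≤ n)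
    (hF : Fintype.card F = (2 ^ n) ^ 2) (T : Type v) [Group T] (C : Coords F (2 ^ n) T)
    (φ : MulAut T) (hφ : φ ∈ K C) (z : T) (hz : (C.c z).1 = 0) : φ z = z := by
  have hchar : CharP F 2 := charP_two F n hn1 hF
  obtain ⟨b, hcz⟩ : ∃ b, C.c z = (0, b) := ⟨(C.c z).2, Prod.ext hz rfl⟩
  have hbq : b + b ^ (2 ^ n) = 0 := by
    have h := (C.range 0 b).1 ⟨z, hcz⟩
    rwa [zero_pow (Nat.succ_ne_zero _)] at h
  have hbq' : b ^ (2 ^ n) = b := (CharTwo.add_eq_zero.1 hbq).symm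
  obtain ⟨l, hl⟩ : ∃ l : F, l = b ^ (2 ^ (n - 1)) := ⟨_, rfl⟩
  have hl1 : l ^ (2 ^ n + 1) = b := by
    have e1 : l ^ (2 ^ n) = l := by
      rw [hl, ← pow_mul, mul_comm, pow_mul, hbq']
    have e2 : l * l = b := by
      rw [hl, ← pow_add]
      have h2 : 2 ^ (n - 1) + 2 ^ (n - 1) = 2 ^ n := by
        obtain ⟨m, rfl⟩ : ∃ m, n = m + 1 := ⟨n - 1, by omega⟩
        rw [Nat.add_sub_cancel, pow_succ]
        ring
      rw [h2, hbq']
    rw [pow_succ, e1, e2]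
  obtain ⟨b0, hb0⟩ := hTr F n hn1 hF l
  obtain ⟨x, hx⟩ := (C.range l b0).2 hb0
  have hxx : x * x = z := C.inj (by rw [sq_coord, hx, hcz, hl1])
  have h1 : (C.c (φ x)).1 = l := by rw [(mem_K C φ).1 hφ x, hx]
  rw [← hxx, map_mul]
  exact C.inj (by rw [sq_coord, sq_coord, h1, hx])

theorem pkgKerComm (hTr : PkgTr.{u}) : PkgKerComm.{u, v} := by
  intro F _ _ n hn hF T _ C
  have hn1 : 1 ≤ n := by omega
  have hchar : CharP F 2 := charP_two F n hn1 hF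
  have hw : ∀ φ ∈ K C, ∀ x : T, (C.c (x⁻¹ * φ x)).1 = 0 := by
    intro φ hφ x
    rw [fst_mul, fst_inv, (mem_K C φ).1 hφ x, neg_add_cancel]
  have hfix := fun φ hφ z hz => ker_fix hTr F n hn1 hF T C φ hφ z hz
  constructor
  · intro φ hφ ψ hψ
    apply MulEquiv.ext
    intro x
    rw [MulAut.mul_apply, MulAut.mul_apply]
    have e1 : ψ x = x * (x⁻¹ * ψ x) := by group
    have e2 : φ x = x * (x⁻¹ * φ x) := by group
    have f1 : φ (x⁻¹ * ψ x) = x⁻¹ * ψ x := hfix φ hφ _ (hw ψ hψ x)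
    have f2 : ψ (x⁻¹ * φ x) = x⁻¹ * φ x := hfix ψ hψ _ (hw φ hφ x)
    have hc := comm_of_fst_zero C (hw φ hφ x) (hw ψ hψ x)
    calc φ (ψ x) = φ (x * (x⁻¹ * ψ x)) := by rw [← e1]
      _ = φ x * (x⁻¹ * ψ x) := by rw [map_mul, f1]
      _ = x * ((x⁻¹ * φ x) * (x⁻¹ * ψ x)) := by group
      _ = x * ((x⁻¹ * ψ x) * (x⁻¹ * φ x)) := by rw [hc]
      _ = ψ x * (x⁻¹ * φ x) := by group
      _ = ψ (x * (x⁻¹ * φ x)) := by rw [map_mul, f2]
      _ = ψ (φ x) := by rw [← e2]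
  · intro φ hφ
    apply MulEquiv.ext
    intro x
    rw [MulAut.mul_apply, MulAut.one_apply]
    have e2 : φ x = x * (x⁻¹ * φ x) := by group
    have f1 : φ (x⁻¹ * φ x) = x⁻¹ * φ x := hfix φ hφ _ (hw φ hφ x)
    have hsq : (x⁻¹ * φ x) * (x⁻¹ * φ x) = 1 := (fst_eq_zero_iff C _).1 (hw φ hφ x)
    calc φ (φ x) = φ (x * (x⁻¹ * φ x)) := by rw [← e2]
      _ = φ x * (x⁻¹ * φ x) := by rw [map_mul, f1]
      _ = x * ((x⁻¹ * φ x) * (x⁻¹ * φ x)) := by group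
      _ = x := by rw [hsq, mul_one]

end Cfsg.Agent.Lib.Helper66.SuzA
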